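import Cfsg.Agent.H732.VZ.KC
import Cfsg.Agent.H279.OZ.KOne
import Cfsg.Agent.H477.OZ.CongS

/-!
# The congruence through a central extension (S4842, helper477)

`π : G →* S` surjective with central kernel of order prime to `p` and `r`; `R` a cyclic Sylow `r`-subgroup of `G`,
`y ∈ R` of order `r` with `C(y) ≤ C(R)`, `K ≤ C(R)` with inner action of `N(R)` containing the `p`-elements of `C(y)`.
* `congr_w` : the weighted congruence;
* `tr_gen` : `e p^m ≡ c (mod r)`, `c` the sum of a linear character of `K` over the `p`-elements;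
* `tr_perfect` : `Cong p r N S` for perfect `K`, `|pSet p S| = p ^ N`.
-/

set_option autoImplicit false
set_option linter.unusedSectionVars false

open Cfsg Cfsg.Agent.Characters Cfsg.Agent.H730.OZ Cfsg.Agent.H732.VZ Cfsg.Agent.CharactersDeep Finset

namespace Cfsg.Agent.H477.OZ

universe u v

section

variable {G : Type v} [Group G] {S : Type u} [Group S] {π : G →* S}

theorem pSet_iff {p : ℕ} (hp : p.Prime) {g : G} : g ∈ pSet p G ↔ ∃ k : ℕ, g ^ p ^ k = 1 := by
  constructor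
  · rintro ⟨k, hk⟩
    exact ⟨k, by rw [← hk, pow_orderOf_eq_one]⟩
  · rintro ⟨k, hk⟩
    obtain ⟨j, -, hj⟩ := (Nat.dvd_prime_pow hp).1 (orderOf_dvd_of_pow_eq_one hk)
    exact ⟨j, hj⟩

theorem bijOn_pSet [Finite G] (hπ : Function.Surjective π) (hker : π.ker ≤ Subgroup.center G) {p : ℕ} (hp : p.Prime)
    (hkp : ¬ p ∣ Nat.card π.ker) : Set.BijOn π (pSet p G) (pSet p S) := by
  have hcop : ∀ k : ℕ, Nat.Coprime (p ^ k) (Nat.card π.ker) := fun k =>
    Nat.Coprime.pow_left _ ((Nat.Prime.coprime_iff_not_dvd hp).2 hkp)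
  have hker1 : ∀ c ∈ π.ker, c ^ Nat.card π.ker = 1 := by
    intro c hc
    have := pow_card_eq_one' (x := (⟨c, hc⟩ : π.ker))
    exact congrArg Subtype.val this
  refine ⟨?_, ?_, ?_⟩
  · intro g hg
    obtain ⟨k, hk⟩ := (pSet_iff hp).1 hg
    exact (pSet_iff hp).2 ⟨k, by rw [← map_pow, hk, map_one]⟩
  · intro g hg g' hg' h
    obtain ⟨k, hk⟩ := (pSet_iff hp).1 hg
    obtain ⟨k', hk'⟩ := (pSet_iff hp).1 hg'
    have hc : g⁻¹ * g' ∈ π.ker := by
      rw [MonoidHom.mem_ker, map_mul, map_inv, h, inv_mul_cancel]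
    set c := g⁻¹ * g' with hcdef
    have hgc : g' = g * c := by rw [hcdef]; group
    have hcomm : Commute g c := Subgroup.mem_center_iff.1 (hker hc) g
    have h1 : c ^ p ^ (k + k') = 1 := by
      have h2 : g ^ p ^ (k + k') = 1 := by rw [pow_add, pow_mul, hk, one_pow]
      have h3 : g' ^ p ^ (k + k') = 1 := by rw [pow_add, mul_comm, pow_mul, hk', one_pow]
      rw [hgc, hcomm.mul_pow, h2, one_mul] at h3
      exact h3
    have h2 : c = 1 := by
      have h3 := Nat.dvd_gcd (orderOf_dvd_of_pow_eq_one h1) (orderOf_dvd_of_pow_eq_one (hker1 c hc))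
      rw [(hcop (k + k')).gcd_eq_one] at h3
      exact orderOf_eq_one_iff.1 (Nat.dvd_one.1 h3)
    rw [hgc, h2, mul_one]
  · intro s hs
    obtain ⟨k, hk⟩ := (pSet_iff hp).1 hs
    obtain ⟨g, rfl⟩ := hπ s
    obtain ⟨m, hm1, hm2⟩ := Nat.chineseRemainder (hcop k) 1 0
    refine ⟨g ^ m, (pSet_iff hp).2 ⟨k, ?_⟩, ?_⟩
    · obtain ⟨m', rfl⟩ := (Nat.modEq_zero_iff_dvd).1 hm2
      have h1 : g ^ p ^ k ∈ π.ker := by rw [MonoidHom.mem_ker, map_pow, hk]
      rw [← pow_mul, mul_comm, pow_mul, pow_mul, hker1 _ h1, one_pow]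
    · rw [map_pow]
      conv_rhs => rw [← pow_one (π g)]
      exact pow_eq_pow_iff_modEq.2 (hm1.of_dvd (orderOf_dvd_of_pow_eq_one hk))

end

section

variable {G : Type v} [Group G] [Finite G]

/-- **The weighted congruence.** -/
theorem congr_w {p r : ℕ} (hp : p.Prime) (hr : r.Prime) (hrp : r ≠ p) {z : G} (hz : orderOf z = r)
    (χ : IrrCharacter G) {lam : ℤ} (hlam : ∑ᶠ u ∈ pSet p G, (χ : G → ℂ) u = lam * (χ : G → ℂ) 1) (w : G → AlgInt)
    (hK : ∀ v, Commute z v → v ∈ pSet p G → (χ : G → ℂ) (z * v) = (w v : ℂ) * (χ : G → ℂ) z)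
    (hdeg : ¬ r ∣ charDegree (χ : G → ℂ)) {c : ℤ}
    (hc : ∑ᶠ v ∈ {v : G | Commute z v ∧ v ∈ pSet p G}, (w v : ℂ) = c) : (r : ℤ) ∣ lam - c := by
  classical
  have := Fintype.ofFinite G
  have : Fact r.Prime := ⟨hr⟩
  obtain ⟨M, hM', hrM⟩ := BrauerLocal.exists_maximal r hr
  have hM : M.IsPrime := hM'.isPrime
  have hP : IsPGroup r (Subgroup.zpowers z) := IsPGroup.of_card (n := 1) (by
    rw [Nat.card_zpowers, hz, pow_one])
  have hnd : ∀ g ∈ pSet p G, ¬ r ∣ orderOf g := by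
    rintro g ⟨k, hk⟩ hd
    rw [hk] at hd
    exact hrp ((Nat.prime_dvd_prime_iff_eq hr hp).1 (hr.dvd_of_dvd_pow hd))
  have hconj : ∀ u x : G, u * x * u⁻¹ ∈ pSet p G ↔ x ∈ pSet p G := by
    intro u x
    rw [pSet_iff hp, pSet_iff hp]
    refine exists_congr fun k => ?_
    rw [conj_pow]
    constructor
    · intro h1
      have h2 : x ^ p ^ k = u⁻¹ * (u * x ^ p ^ k * u⁻¹) * u := by group
      rw [h2, h1]; group
    · intro h1
      rw [h1]; group
  obtain ⟨a, ha⟩ := Cfsg.Agent.Blocks.OrbitSum.sum_eq_sum_centralizer_add_smul (p := r)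
    (Subgroup.zpowers z) hP (fun g => if g ∈ pSet p G then av χ g else 0) (fun u _ x => by
      simp only [hconj u x]
      congr 1
      exact Subtype.ext (Core.isIrr_isClassFunction χ.2 x u))
  have hfil : univ.filter (· ∈ Subgroup.centralizer ((Subgroup.zpowers z : Subgroup G) : Set G))
      = univ.filter (Commute z) := by
    ext x
    simp only [mem_filter, mem_univ, true_and]
    rw [Subgroup.zpowers_eq_closure, Subgroup.centralizer_closure,
      Subgroup.mem_centralizer_singleton_iff]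
    exact ⟨fun h => h.symm, fun h => h.symm⟩
  rw [hfil, ← Finset.sum_filter, ← Finset.sum_filter, Finset.filter_filter] at ha
  have h0 : ∑ g ∈ univ.filter (· ∈ pSet p G), av χ g = (lam : AlgInt) * av χ 1 := by
    apply Subtype.ext
    push_cast
    simp only [av_coe]
    rw [← hlam, finsum_mem_eq_finite_toFinset_sum _ (Set.toFinite (pSet p G))]
    refine Finset.sum_congr ?_ fun g _ => rfl
    ext g
    simp only [mem_filter, mem_univ, true_and, Set.Finite.mem_toFinset]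
  -- `χ z ≡ χ 1`
  have hz1 : av χ z - av χ 1 ∈ M := by
    have := av_mul_sub_mem hr hM hrM χ hz (Commute.one_right z) (by
      rw [orderOf_one]
      exact fun h => hr.one_lt.ne' (Nat.dvd_one.1 h))
    rwa [mul_one] at this
  -- termwise congruence
  have hterm : ∀ g ∈ univ.filter (fun g => Commute z g ∧ g ∈ pSet p G),
      av χ g - w g * av χ 1 ∈ M := by
    intro g hg
    obtain ⟨hg1, hg2⟩ := (mem_filter.1 hg).2
    have h1 := av_mul_sub_mem hr hM hrM χ hz hg1 (hnd g hg2)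
    have h2 : av χ (z * g) = w g * av χ z := Subtype.ext (hK g hg1 hg2)
    rw [h2] at h1
    have h3 : w g * av χ z - w g * av χ 1 ∈ M := by
      rw [← mul_sub]
      exact M.mul_mem_left _ hz1
    have := M.sub_mem h3 h1
    rwa [sub_sub_sub_cancel_left] at this
  have hsum : (∑ g ∈ univ.filter (fun g => Commute z g ∧ g ∈ pSet p G), av χ g)
      - (∑ g ∈ univ.filter (fun g => Commute z g ∧ g ∈ pSet p G), w g) * av χ 1 ∈ M := by
    rw [Finset.sum_mul, ← Finset.sum_sub_distrib]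
    exact M.sum_mem hterm
  have hcw : ∑ g ∈ univ.filter (fun g => Commute z g ∧ g ∈ pSet p G), w g = (c : AlgInt) := by
    apply Subtype.ext
    push_cast
    rw [← hc, finsum_mem_eq_finite_toFinset_sum _ (Set.toFinite _)]
    refine Finset.sum_congr ?_ fun g _ => rfl
    ext g
    simp only [mem_filter, mem_univ, true_and, Set.Finite.mem_toFinset]
    rfl
  rw [hcw] at hsum
  have hfin : ((lam : AlgInt) - (c : AlgInt)) * av χ 1 ∈ M := by
    rw [sub_mul, ← h0, ha]
    have : (∑ g ∈ univ.filter (fun g => Commute z g ∧ g ∈ pSet p G), av χ g) + r • a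
        - (c : AlgInt) * av χ 1
        = ((∑ g ∈ univ.filter (fun g => Commute z g ∧ g ∈ pSet p G), av χ g)
          - (c : AlgInt) * av χ 1) + (r : AlgInt) * a := by
      rw [nsmul_eq_mul]; ring
    rw [this]
    exact M.add_mem hsum (M.mul_mem_right _ hrM)
  have hdegM : av χ 1 ∉ M := by
    have h1 : av χ 1 = ((charDegree (χ : G → ℂ) : ℤ) : AlgInt) := by
      apply Subtype.ext
      push_cast
      exact (Cfsg.Agent.H686.CharKit.charDegree_irr χ).symm
    rw [h1, int_mem_iff hr hM hrM]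
    intro h
    exact hdeg (by exact_mod_cast h)
  have hlast := (hM.mem_or_mem hfin).resolve_right hdegM
  have hcast : (lam : AlgInt) - (c : AlgInt) = ((lam - c : ℤ) : AlgInt) := by
    push_cast
    rfl
  rw [hcast, int_mem_iff hr hM hrM] at hlast
  exact hlast

end

section

variable {G : Type v} [Group G] [Finite G] {S : Type u} [Group S] [Finite S] {π : G →* S}

theorem card_eq_mul_ker (hπ : Function.Surjective π) : Nat.card G = Nat.card S * Nat.card π.ker := by
  have h1 := Subgroup.card_mul_index π.ker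
  rw [Subgroup.index_ker, MonoidHom.range_eq_top.2 hπ, Subgroup.card_top] at h1
  rw [← h1, mul_comm]

theorem cent_map (hπ : Function.Surjective π) (hker : π.ker ≤ Subgroup.center G) {r : ℕ} (hr : r.Prime)
    (hkr : ¬ r ∣ Nat.card π.ker) {y : G} (hy : orderOf y = r) :
    Subgroup.centralizer ({π y} : Set S) = (Subgroup.centralizer ({y} : Set G)).map π := by
  apply le_antisymm
  · intro s hs
    obtain ⟨g, rfl⟩ := hπ s
    refine ⟨g, ?_, rfl⟩
    rw [Subgroup.mem_centralizer_singleton_iff] at hs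
    rw [SetLike.mem_coe, Subgroup.mem_centralizer_singleton_iff]
    set c := g * y * g⁻¹ * y⁻¹ with hcdef
    have hc : c ∈ π.ker := by
      rw [MonoidHom.mem_ker, map_mul, map_inv, map_mul, map_mul, map_inv, hs]
      group
    have hgc : g * y * g⁻¹ = c * y := by rw [hcdef]; group
    have hcomm : Commute c y := (Subgroup.mem_center_iff.1 (hker hc) y).symm
    have h1 : c ^ r = 1 := by
      have h2 : (g * y * g⁻¹) ^ r = 1 := by
        rw [conj_pow, ← hy, pow_orderOf_eq_one, mul_one, mul_inv_cancel]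
      rw [hgc, hcomm.mul_pow, ← hy, pow_orderOf_eq_one, mul_one] at h2
      rw [← hy]; exact h2
    have h2 : c = 1 := by
      have h3 : orderOf c ∣ Nat.card π.ker := by
        have := orderOf_dvd_natCard (⟨c, hc⟩ : π.ker)
        rwa [Subgroup.orderOf_mk] at this
      rcases (Nat.dvd_prime hr).1 (orderOf_dvd_of_pow_eq_one h1) with h4 | h4
      · exact orderOf_eq_one_iff.1 h4
      · rw [h4] at h3
        exact absurd h3 hkr
    rw [h2, one_mul] at hgc
    calc g * y = g * y * g⁻¹ * g := by group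
      _ = y * g := by rw [hgc]
  · rintro _ ⟨g, hg, rfl⟩
    rw [SetLike.mem_coe, Subgroup.mem_centralizer_singleton_iff] at hg
    rw [Subgroup.mem_centralizer_singleton_iff, ← map_mul, ← map_mul, hg]

theorem orderOf_map {r : ℕ} (hr : r.Prime) (hkr : ¬ r ∣ Nat.card π.ker) {y : G} (hy : orderOf y = r) : orderOf (π y) = r := by
  have h1 : orderOf (π y) ∣ r := by
    rw [← hy]
    exact orderOf_map_dvd π y
  rcases (Nat.dvd_prime hr).1 h1 with h2 | h2
  · exfalso
    have h3 : y ∈ π.ker := by rw [MonoidHom.mem_ker]; exact orderOf_eq_one_iff.1 h2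
    have := orderOf_dvd_natCard (⟨y, h3⟩ : π.ker)
    rw [Subgroup.orderOf_mk, hy] at this
    exact hkr this
  · exact h2

variable (hπ : Function.Surjective π) (hker : π.ker ≤ Subgroup.center G) {p r : ℕ} (hp : p.Prime) [hr : Fact r.Prime]
  (hrp : r ≠ p) (hkp : ¬ p ∣ Nat.card π.ker) (hkr : ¬ r ∣ Nat.card π.ker) (R : Sylow r G)
  (hcyc : IsCyclic (R : Subgroup G)) {y : G} (hy : orderOf y = r) (hyR : y ∈ (R : Subgroup G))
  (hC : Subgroup.centralizer ({y} : Set G) ≤ Subgroup.centralizer ((R : Subgroup G) : Set G))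
  (hnd : Nat.card (Subgroup.centralizer ({y} : Set G)) ≠ r * Nat.card π.ker ∨
    ∃ m : ℕ, ¬ r ∣ m ∧ ¬ IsConj (π y) (π y ^ m))

include hπ hker hkr hcyc hy hyR hC hnd

/-- `r` does not divide the degree -/
theorem tr_not_dvd (χ : IrrCharacter S) (x : S) (h : One χ x) : ¬ r ∣ charDegree (χ : S → ℂ) := by
  have hR' : ((R.mapSurjective hπ : Sylow r S) : Subgroup S) = (R : Subgroup G).map π := rfl
  have hcm := cent_map hπ hker hr.out hkr hy
  refine not_dvd_of_sylow (R.mapSurjective hπ) ?_ (orderOf_map hr.out hkr hy) ?_ ?_ ?_ χ x h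
  · have hs : Function.Surjective (π.subgroupMap (R : Subgroup G)) := π.subgroupMap_surjective _
    exact isCyclic_of_surjective _ hs
  · exact ⟨y, hyR, rfl⟩
  · rw [hcm, hR']
    rintro _ ⟨g, hg, rfl⟩
    rw [Subgroup.mem_centralizer_iff]
    rintro _ ⟨t, ht, rfl⟩
    rw [← map_mul, ← map_mul, Subgroup.mem_centralizer_iff.1 (hC hg) t ht]
  · rcases hnd with h1 | h1
    · left
      intro h2
      apply h1
      have hle : π.ker ≤ Subgroup.centralizer ({y} : Set G) := fun c hc => by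
        rw [Subgroup.mem_centralizer_singleton_iff]
        exact (Subgroup.mem_center_iff.1 (hker hc) y).symm
      have e1 := Subgroup.index_map_eq (Subgroup.centralizer ({y} : Set G)) hπ hle
      have e2 := Subgroup.card_mul_index (Subgroup.centralizer ({y} : Set G))
      have e3 := Subgroup.card_mul_index ((Subgroup.centralizer ({y} : Set G)).map π)
      rw [e1, ← hcm, h2] at e3
      rw [card_eq_mul_ker hπ, ← e3] at e2
      have hpos : 0 < (Subgroup.centralizer ({y} : Set G)).index := Nat.pos_of_ne_zero Subgroup.index_ne_zero_of_finite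
      apply Nat.eq_of_mul_eq_mul_right hpos
      rw [e2]; ring
    · exact Or.inr h1

omit hnd hy hyR hC hcyc hr hkr in
theorem tr_sum {χ : S → ℂ} (hkp : ¬ p ∣ Nat.card π.ker) (hp : p.Prime) :
    ∑ᶠ u ∈ pSet p G, χ (π u) = ∑ᶠ u ∈ pSet p S, χ u :=
  finsum_mem_eq_of_bijOn π (bijOn_pSet hπ hker hp hkp) fun _ _ => rfl

variable (K : Subgroup G) (hKC : K ≤ Subgroup.centralizer ((R : Subgroup G) : Set G)) (hKr : ¬ r ∣ Nat.card K)
  (hKN : ∀ n ∈ Subgroup.normalizer ((R : Subgroup G) : Set G), ∃ c ∈ K, ∀ k ∈ K, n * k * n⁻¹ = c * k * c⁻¹)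
  (hpK : ∀ v, Commute y v → v ∈ pSet p G → v ∈ K)
  (h2 : ∀ k₀ ∈ K, ∃ y₁ ∈ R, ∃ t₁ ∈ Subgroup.centralizer ((R : Subgroup G) : Set G),
    ∃ y₂ ∈ R, ∃ t₂ ∈ Subgroup.centralizer ((R : Subgroup G) : Set G),
      Subgroup.centralizer ({y₁} : Set G) ≤ Subgroup.centralizer ((R : Subgroup G) : Set G) ∧
      (∀ x ∈ K, t₁ * x = x * t₁) ∧ ¬ r ∣ orderOf t₁ ∧
      Subgroup.centralizer ({y₂} : Set G) ≤ Subgroup.centralizer ((R : Subgroup G) : Set G) ∧
      (∀ x ∈ K, t₂ * x = x * t₂) ∧ ¬ r ∣ orderOf t₂ ∧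
      ¬ IsConj (π (y₁ * t₁ * k₀)) (π (y₂ * t₂ * k₀)))

include hp hrp hkp hKC hKr hKN hpK h2

/-- **The congruence through the extension.** -/
theorem tr_gen {χ : S → ℂ} (hχ : IsIrrCharacter S χ) (h0 : OneZero χ) {m : ℕ} {e : ℤ}
    (hs : ∑ᶠ u ∈ pSet p S, χ u = (e : ℂ) * (p : ℂ) ^ m * χ 1) :
    ∃ f : K →* ℂˣ, (∀ k : K, χ (π (y * k)) = f k * χ (π y)) ∧
      ∀ c : ℤ, ∑ᶠ k ∈ pSet p K, ((f k : ℂˣ) : ℂ) = c → (r : ℤ) ∣ e * (p : ℤ) ^ m - c := by
  classical
  have := Fintype.ofFinite G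
  obtain ⟨x, hx⟩ := (oneZero_iff hχ).1 h0
  have hnd' := tr_not_dvd hπ hker hkr R hcyc hy hyR hC hnd ⟨χ, hχ⟩ x hx
  let ψ : IrrCharacter G := ⟨χ ∘ π, Core.isIrr_comp π hπ hχ⟩
  have hψ : ∀ g, (ψ : G → ℂ) g = χ (π g) := fun _ => rfl
  have hψd : ¬ r ∣ charDegree (ψ : G → ℂ) := by
    have e1 : charDegree (ψ : G → ℂ) = charDegree χ := by
      have e2 := H686.CharKit.charDegree_irr ψ
      have e3 := H686.CharKit.charDegree_irr (⟨χ, hχ⟩ : IrrCharacter S)
      have e4 : (ψ : G → ℂ) 1 = χ 1 := by rw [hψ, map_one]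
      rw [e4] at e2
      have : ((charDegree (ψ : G → ℂ) : ℕ) : ℂ) = ((charDegree χ : ℕ) : ℂ) := e2.trans e3.symm
      exact_mod_cast this
    rw [e1]
    exact hnd'
  have hsum : ∑ᶠ u ∈ pSet p G, (ψ : G → ℂ) u = ((e * (p : ℤ) ^ m : ℤ) : ℂ) * (ψ : G → ℂ) 1 := by
    have h1 := tr_sum (χ := χ) hπ hker hkp hp
    rw [hs] at h1
    rw [hψ, map_one]
    push_cast
    exact h1
  have hab : (R : Subgroup G) ≤ Subgroup.centralizer ((R : Subgroup G) : Set G) := by
    intro a ha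
    rw [Subgroup.mem_centralizer_iff]
    intro b hb
    have h1 : (⟨b, hb⟩ : (R : Subgroup G)) * ⟨a, ha⟩ = ⟨a, ha⟩ * ⟨b, hb⟩ := by
      have := hcyc.isMulCommutative
      exact Std.Commutative.comm _ _
    exact congrArg Subtype.val h1
  rcases H279.OZ.alt_inner R hab K hKC hKr hKN ψ with ⟨f, hf⟩ | ⟨k₀, hk₀, hz⟩
  · refine ⟨f, fun k => hf y hyR hC k, fun c hc => ?_⟩
    have hint : ∀ k : K, IsIntegral ℤ ((f k : ℂˣ) : ℂ) := by
      intro k
      have h1 : ((f k : ℂˣ) : ℂ) ^ Nat.card K = 1 := by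
        rw [← Units.val_pow_eq_pow_val, ← map_pow, pow_card_eq_one', map_one, Units.val_one]
      exact IsIntegral.of_pow (Nat.card_pos (α := K)) (by rw [h1]; exact isIntegral_one)
    let w : G → AlgInt := fun g => if hg : g ∈ K then ⟨((f ⟨g, hg⟩ : ℂˣ) : ℂ), hint _⟩ else 0
    have hw : ∀ k : K, (w k : ℂ) = ((f k : ℂˣ) : ℂ) := by
      intro k
      simp only [w, dif_pos k.2]
    have hyK : ∀ k ∈ K, Commute y k := fun k hk => Subgroup.mem_centralizer_iff.1 (hKC hk) y hyR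
    refine congr_w hp hr.out hrp hy ψ hsum w (fun v hv hvp => ?_) hψd ?_
    · have hvK := hpK v hv hvp
      have h1 := hf y hyR hC ⟨v, hvK⟩
      rw [h1, ← hw ⟨v, hvK⟩]
    · rw [← hc]
      symm
      refine finsum_mem_eq_of_bijOn (fun k : K => (k : G)) ⟨?_, ?_, ?_⟩ fun k _ => (hw k).symm
      · intro k hk
        obtain ⟨j, hj⟩ := (pSet_iff hp).1 hk
        exact ⟨hyK k k.2, (pSet_iff hp).2 ⟨j, congrArg Subtype.val hj⟩⟩
      · exact fun a _ b _ hab => Subtype.ext hab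
      · rintro v ⟨hv1, hv2⟩
        obtain ⟨j, hj⟩ := (pSet_iff hp).1 hv2
        exact ⟨⟨v, hpK v hv1 hv2⟩, (pSet_iff hp).2 ⟨j, Subtype.ext hj⟩, rfl⟩
  · exfalso
    obtain ⟨y₁, hy₁, t₁, ht₁, y₂, hy₂, t₂, ht₂, a1, a2, a3, b1, b2, b3, hno⟩ := h2 k₀ hk₀
    have z1 := hz y₁ hy₁ a1 t₁ ht₁ a2 a3
    have z2 := hz y₂ hy₂ b1 t₂ ht₂ b2 b3
    exact hno ((hx.uniq _ z1).symm.trans (hx.uniq _ z2))

theorem tr_perfect (hKp : commutator K = ⊤) {N : ℕ} (hcard : (pSet p S).ncard = p ^ N) : Cong p r N S := by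
  classical
  have := Fintype.ofFinite G
  intro χ hχ h0 m e he hs
  obtain ⟨f, hf, -⟩ := tr_gen hπ hker hp hrp hkp hkr R hcyc hy hyR hC hnd K hKC hKr hKN hpK h2 hχ h0 hs
  have hf1 : ∀ k : K, f k = 1 := by
    intro k
    have h1 : f.ker = ⊤ := by
      rw [eq_top_iff, ← hKp]
      exact Abelianization.commutator_subset_ker f
    exact (MonoidHom.mem_ker).1 (h1 ▸ Subgroup.mem_top k)
  obtain ⟨x, hx⟩ := (oneZero_iff hχ).1 h0
  have hnd' := tr_not_dvd hπ hker hkr R hcyc hy hyR hC hnd ⟨χ, hχ⟩ x hx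
  let ψ : IrrCharacter G := ⟨χ ∘ π, Core.isIrr_comp π hπ hχ⟩
  have hψ : ∀ g, (ψ : G → ℂ) g = χ (π g) := fun _ => rfl
  have hψd : ¬ r ∣ charDegree (ψ : G → ℂ) := by
    have e1 : charDegree (ψ : G → ℂ) = charDegree χ := by
      have e2 := H686.CharKit.charDegree_irr ψ
      have e3 := H686.CharKit.charDegree_irr (⟨χ, hχ⟩ : IrrCharacter S)
      have e4 : (ψ : G → ℂ) 1 = χ 1 := by rw [hψ, map_one]
      rw [e4] at e2
      have : ((charDegree (ψ : G → ℂ) : ℕ) : ℂ) = ((charDegree χ : ℕ) : ℂ) := e2.trans e3.symm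
      exact_mod_cast this
    rw [e1]
    exact hnd'
  have h3 := (basic hp hr.out hrp hy ψ hψd (m := m) (e := e) (fun v hv hvp => by
    have h4 := hf ⟨v, hpK v hv hvp⟩
    rw [hf1, Units.val_one, one_mul] at h4
    exact h4) (by
      rw [hψ, map_one, ← hs]
      exact tr_sum hπ hker hkp hp)).1
  rw [(bijOn_pSet hπ hker hp hkp).ncard_eq, hcard] at h3
  exact_mod_cast h3

end

end Cfsg.Agent.H477.OZ
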