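import Cfsg.Agent.H477.OZ.Med
import Cfsg.Agent.H477.OZ.SpC

/-!
# `PSp_8(3)` and the prime 13 (S4842, helper477)

`y` of order 13 in `Sp_8(3)`: `dim [V,y] = 6` and `y` is an element of `GL_1(27)` on a totally isotropic subspace.
* `T13.finrank_com` : `dim [V,y] = 6`;
* `T13.mem_Ky` : the `3`-elements of `C(y)` are trivial on `[V,y]`;
* `T13.no_sq` : `y` is not conjugate to `y ^ 2`;
* `cong_psp8_three` : `CongS 3 13 {9, -3} (PSp_8(3))`.
-/

set_option autoImplicit false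
set_option linter.unusedSectionVars false

open Cfsg Cfsg.Agent.H730.OZ

namespace Cfsg.Agent.H477.OZ

open Module Polynomial Cfsg.Agent.H477.HC

universe u v

section

variable {K : Type u} [Field K] {V : Type v} [AddCommGroup V] [Module K V]

theorem nil_ker {N : V →ₗ[K] V} {n : ℕ} (hN : N ^ n = 0) {S : Submodule K V} (hS : ∀ s ∈ S, N s ∈ S) (hne : S ≠ ⊥) :
    LinearMap.ker N ⊓ S ≠ ⊥ := by
  intro hb
  have h1 : ∀ s ∈ S, N s = 0 → s = 0 := by
    intro s hs h0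
    have : s ∈ LinearMap.ker N ⊓ S := ⟨h0, hs⟩
    rwa [hb, Submodule.mem_bot] at this
  have h2 : ∀ k : ℕ, ∀ s ∈ S, (N ^ k) s ∈ S := by
    intro k
    induction k with
    | zero => intro s hs; exact hs
    | succ k ih => intro s hs; rw [pow_succ']; exact hS _ (ih s hs)
  have h3 : ∀ k : ℕ, ∀ s ∈ S, (N ^ k) s = 0 → s = 0 := by
    intro k
    induction k with
    | zero => intro s _ hs; exact hs
    | succ k ih =>
      intro s hs h0
      rw [pow_succ'] at h0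
      exact ih s hs (h1 _ (h2 k s hs) h0)
  obtain ⟨u₀, hu₀, h0⟩ := Submodule.exists_mem_ne_zero_of_ne_bot hne
  exact h0 (h3 n u₀ hu₀ (by rw [hN]; rfl))

theorem nil_map {N : V →ₗ[K] V} {n : ℕ} (hN : N ^ n = 0) {S : Submodule K V} (hne : S ≠ ⊥) : S.map N ≠ S := by
  intro h
  have h1 : ∀ k : ℕ, S.map (N ^ k) = S := by
    intro k
    induction k with
    | zero => exact Submodule.map_id S
    | succ k ih =>
      rw [pow_succ', Module.End.mul_eq_comp, Submodule.map_comp, ih, h]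
  have h2 := h1 n
  rw [hN, Submodule.map_zero] at h2
  exact hne h2.symm

theorem frob [Finite K] {q : ℕ} (hK : Nat.card K = q) (f : V →ₗ[K] V) (m : K[X]) : aeval (f ^ q) m = (aeval f m) ^ q := by
  have := Fintype.ofFinite K
  rw [Nat.card_eq_fintype_card] at hK
  rw [← hK, ← Polynomial.expand_aeval, FiniteField.expand_card, map_pow]

theorem ord13 : orderOf ((3 : ℕ) : ZMod 13) = 3 := by
  have : Fact (Nat.Prime 3) := ⟨Nat.prime_three⟩
  exact orderOf_eq_prime (by decide) (by decide)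

theorem ipow_apply {F : CForm K V} (y : F.iso) {n : ℕ} (h : y ^ (n + 1) = 1) :
    ((y⁻¹ : F.iso) : V ≃ₗ[K] V) = (y : V ≃ₗ[K] V) ^ n := by
  have h1 : y⁻¹ = y ^ n := by
    rw [inv_eq_iff_mul_eq_one, ← pow_succ']
    exact h
  rw [h1]
  rfl

end

namespace T13

variable {K : Type u} [Field K] {V : Type v} [AddCommGroup V] [Module K V] [Finite K] [FiniteDimensional K V]
variable {F : CForm K V} {y : F.iso} (h : Med (y : V ≃ₗ[K] V) 13) (hK : Nat.card K = 3) (hσ : ∀ a, F.σ a = a)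

include h hK

theorem y13 : y ^ (12 + 1) = 1 := by
  have h1 := pow_orderOf_eq_one y
  rwa [h.orderOf_eq] at h1

theorem stable_inv {W : Submodule K V} (hst : ∀ u ∈ W, (y : V ≃ₗ[K] V) u ∈ W) (m : K[X]) :
    ∀ u ∈ W, aeval (((y⁻¹ : F.iso) : V ≃ₗ[K] V) : V →ₗ[K] V) m u ∈ W := by
  rw [ipow_apply y (y13 h hK)]
  refine aeval_stable (fun u hu => ?_) m
  have hpw : ∀ n : ℕ, ∀ u ∈ W, ((y : V ≃ₗ[K] V) ^ n) u ∈ W := by
    intro n
    induction n with
    | zero => intro u hu; exact hu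
    | succ n ih => intro u hu; rw [pow_apply_succ]; exact hst _ (ih u hu)
  exact hpw 12 u hu

theorem ord : orderOf (Nat.card K : ZMod 13) = 3 := by rw [hK]; exact ord13

/-- the irreducible modules are not selfdual -/
theorem no_dual {W : Submodule K V} (hW : W ≤ comS (y : V ≃ₗ[K] V)) (hst : ∀ u ∈ W, (y : V ≃ₗ[K] V) u ∈ W)
    (hd : finrank K W = 3) {m : K[X]} (hm0 : m ≠ 0) (hmd : m.natDegree = 3)
    (hm : ∀ u ∈ W, aeval ((y : V ≃ₗ[K] V) : V →ₗ[K] V) m u = 0) :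
    ¬ ∀ u ∈ W, aeval (((y⁻¹ : F.iso) : V ≃ₗ[K] V) : V →ₗ[K] V) m u = 0 := by
  intro hinv
  have hne : W ≠ ⊥ := by
    rintro rfl
    rw [finrank_bot] at hd
    omega
  have h3 : ∀ f : V →ₗ[K] V, (∀ u ∈ W, aeval f m u = 0) → ∀ u ∈ W, aeval (f ^ 3) m u = 0 := by
    intro f hf u hu
    rw [frob hK, pow_succ]
    show ((aeval f m) ^ 2) (aeval f m u) = 0
    rw [hf u hu, map_zero]
  have hle := roots_le (y := (y : V ≃ₗ[K] V)) h.prime h.pow_eq hst (h.irr hW (by rw [hd, ord h hK])) hne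
    (fun u hu => h.comS_fix u (hW hu)) hm0 {1, 3, 9, 12} (by decide) (by
      intro i hi u hu
      simp only [Finset.mem_insert, Finset.mem_singleton] at hi
      rcases hi with rfl | rfl | rfl | rfl
      · rw [pow_one]; exact hm u hu
      · rw [lin_pow]; exact h3 _ hm u hu
      · rw [show 9 = 3 * 3 from rfl, lin_pow, pow_mul]
        exact h3 _ (h3 _ hm) u hu
      · rw [← ipow_apply y (y13 h hK)]
        exact hinv u hu)
  rw [hmd] at hle
  have : ({1, 3, 9, 12} : Finset ℕ).card = 4 := by decide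
  omega

include hσ

/-- the commutator space has dimension 6 -/
theorem finrank_com (hV : finrank K V = 8) : finrank K (comS (y : V ≃ₗ[K] V)) = 6 := by
  obtain ⟨k, hk⟩ := h.dvd_finrank _ le_rfl h.comS_stable
  rw [ord h hK] at hk
  have h1 := Submodule.finrank_le (comS (y : V ≃ₗ[K] V))
  rw [hV] at h1
  have h2 : finrank K (comS (y : V ≃ₗ[K] V)) ≠ 0 := fun h0 => h.comS_ne (Submodule.finrank_eq_zero.1 h0)
  have h3 : finrank K (comS (y : V ≃ₗ[K] V)) ≠ 3 := by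
    intro h3
    obtain ⟨m, hm0, hmd, hm⟩ := exists_cp (f := ((y : V ≃ₗ[K] V) : V →ₗ[K] V)) (W := comS (y : V ≃ₗ[K] V)) h.comS_stable
    refine no_dual h hK le_rfl h.comS_stable h3 hm0 (by rw [hmd, h3]) hm fun u hu => ?_
    refine h.nondeg_com _ (stable_inv h hK h.comS_stable m u hu) fun v hv => ?_
    rw [← adj_poly F hσ, hm v hv, F.B_zero_left]
  omega

theorem dims (hV : finrank K V = 8) {S : Submodule K V} (hS : S ≤ comS (y : V ≃ₗ[K] V))
    (hst : ∀ s ∈ S, (y : V ≃ₗ[K] V) s ∈ S) (h0 : S ≠ ⊥) (h1 : S ≠ comS (y : V ≃ₗ[K] V)) : finrank K S = 3 := by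
  obtain ⟨k, hk⟩ := h.dvd_finrank S hS hst
  rw [ord h hK] at hk
  have h6 := finrank_com h hK hσ hV
  have h2 : finrank K S < 6 := by
    rw [← h6]
    exact Submodule.finrank_lt_finrank_of_lt (lt_of_le_of_ne hS h1)
  have h3 : finrank K S ≠ 0 := fun h0' => h0 (Submodule.finrank_eq_zero.1 h0')
  omega

/-- the `3`-elements commuting with `y` -/
theorem mem_Ky (hV : finrank K V = 8) {g : F.iso} (hg : Commute g y) {j : ℕ} (hj : g ^ 3 ^ j = 1) : g ∈ Ky F y := by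
  have hp3 : Fact (Nat.Prime 3) := ⟨Nat.prime_three⟩
  have hchar : CharP K 3 := by
    have := Fintype.ofFinite K
    exact charP_of_card_eq_prime (by rw [← Nat.card_eq_fintype_card, hK])
  set U := comS (y : V ≃ₗ[K] V) with hU
  set N : V →ₗ[K] V := ((g : V ≃ₗ[K] V) : V →ₗ[K] V) - 1 with hNdef
  have hNv : ∀ v, N v = (g : V ≃ₗ[K] V) v - v := fun v => rfl
  have hNy : ∀ v, N ((y : V ≃ₗ[K] V) v) = (y : V ≃ₗ[K] V) (N v) := by
    intro v
    rw [hNv, hNv, map_sub, comm_apply F hg]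
  have hUne : U ≠ ⊥ := h.comS_ne
  obtain ⟨u₀, hu₀, h0⟩ := Submodule.exists_mem_ne_zero_of_ne_bot hUne
  have hNU : ∀ u ∈ U, N u ∈ U := by
    intro u hu
    exact U.sub_mem (comS_conj (fun v => comm_apply F hg v) hu) hu
  have hN0 : N ^ 3 ^ j = 0 := by
    have hp2 : CharP (V →ₗ[K] V) 3 := by
      have : Nontrivial V := ⟨u₀, 0, h0⟩
      exact charP_of_injective_algebraMap (algebraMap K (Module.End K V)).injective 3
    have h3 : Commute ((g : V ≃ₗ[K] V) : V →ₗ[K] V) 1 := Commute.one_right _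
    have h4 := sub_pow_char_pow_of_commute (R := Module.End K V) (p := 3) (n := j) h3
    rw [one_pow] at h4
    have h5 : (((g : V ≃ₗ[K] V) : V →ₗ[K] V)) ^ 3 ^ j = 1 := by
      rw [← lin_pow]
      have h6 : (g : V ≃ₗ[K] V) ^ 3 ^ j = 1 := congrArg Subtype.val hj
      rw [h6]
      rfl
    rw [h5, sub_self] at h4
    exact h4
  -- the kernel on `U`
  by_cases hW : LinearMap.ker N ⊓ U = U
  · intro u hu
    have h1 : u ∈ LinearMap.ker N ⊓ U := by rw [hW]; exact hu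
    exact sub_eq_zero.1 h1.1
  exfalso
  set W := LinearMap.ker N ⊓ U with hWdef
  have hWst : ∀ s ∈ W, (y : V ≃ₗ[K] V) s ∈ W := by
    rintro s ⟨hs1, hs2⟩
    refine ⟨?_, h.comS_stable s hs2⟩
    rw [SetLike.mem_coe, LinearMap.mem_ker] at hs1 ⊢
    rw [hNy, hs1, map_zero]
  have hWd : finrank K W = 3 := dims h hK hσ hV inf_le_right hWst (nil_ker hN0 hNU hUne) hW
  have hMle : U.map N ≤ U := by
    rintro _ ⟨u, hu, rfl⟩
    exact hNU u hu
  have hMst : ∀ s ∈ U.map N, (y : V ≃ₗ[K] V) s ∈ U.map N := by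
    rintro _ ⟨u, hu, rfl⟩
    exact ⟨(y : V ≃ₗ[K] V) u, h.comS_stable u hu, hNy u⟩
  have hMne : U.map N ≠ ⊥ := by
    intro hb
    apply hW
    refine le_antisymm inf_le_right fun u hu => ⟨?_, hu⟩
    have h1 : N u ∈ U.map N := ⟨u, hu, rfl⟩
    rw [hb, Submodule.mem_bot] at h1
    exact h1
  have hMd : finrank K (U.map N) = 3 := dims h hK hσ hV hMle hMst hMne (nil_map hN0 hUne)
  have hMW : U.map N = W := by
    have h1 : LinearMap.ker N ⊓ U.map N = U.map N := by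
      refine h.irr hMle (by rw [hMd, ord h hK]) _ inf_le_right ?_ ?_
      · rintro s ⟨hs1, hs2⟩
        refine ⟨?_, hMst s hs2⟩
        rw [SetLike.mem_coe, LinearMap.mem_ker] at hs1 ⊢
        rw [hNy, hs1, map_zero]
      · exact nil_ker hN0 (fun s hs => ⟨s, hMle hs, rfl⟩) hMne
    apply Submodule.eq_of_le_of_finrank_eq
    · intro s hs
      rw [← h1] at hs
      exact ⟨hs.1, hMle hs.2⟩
    · rw [hMd, hWd]
  obtain ⟨m, hm0, hmd, hm⟩ := exists_cp (f := ((y : V ≃ₗ[K] V) : V →ₗ[K] V)) (W := W) hWst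
  -- `m(y) U ≤ W`
  have hmU : ∀ u ∈ U, aeval ((y : V ≃ₗ[K] V) : V →ₗ[K] V) m u ∈ W := by
    intro u hu
    refine ⟨?_, aeval_stable (f := ((y : V ≃ₗ[K] V) : V →ₗ[K] V)) h.comS_stable m u hu⟩
    have h1 : Commute (N : Module.End K V) (aeval ((y : V ≃ₗ[K] V) : V →ₗ[K] V) m) :=
      commute_aeval (LinearMap.ext hNy) m
    have h2 : N (aeval ((y : V ≃ₗ[K] V) : V →ₗ[K] V) m u) = aeval ((y : V ≃ₗ[K] V) : V →ₗ[K] V) m (N u) :=
      LinearMap.congr_fun h1.eq u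
    rw [SetLike.mem_coe, LinearMap.mem_ker, h2]
    refine hm _ ?_
    rw [← hMW]
    exact ⟨u, hu, rfl⟩
  -- `W` is totally isotropic
  have hWW : ∀ w ∈ W, ∀ w' ∈ W, F.B w w' = 0 := by
    intro w hw w' hw'
    rw [← hMW] at hw
    obtain ⟨v, hv, rfl⟩ := hw
    have hgw : (g : V ≃ₗ[K] V) w' = w' := sub_eq_zero.1 hw'.1
    rw [hNv, F.B_sub_left]
    conv_lhs => arg 1; rw [← hgw, F.iso_B]
    rw [sub_self]
  refine no_dual h hK inf_le_right hWst hWd hm0 (by rw [hmd, hWd]) hm fun u hu => ?_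
  refine h.nondeg_com _ (stable_inv h hK h.comS_stable m u hu.2) fun v hv => ?_
  rw [← adj_poly F hσ]
  exact hWW _ (hmU v hv) u hu

/-- `y` is not conjugate to its square -/
theorem no_sq (hV : finrank K V = 8) : ¬ ∃ g : F.iso, g * y * g⁻¹ = y ^ 2 := by
  rintro ⟨g, hg⟩
  set U := comS (y : V ≃ₗ[K] V) with hU
  have hgy : ∀ v, (g : V ≃ₗ[K] V) ((y : V ≃ₗ[K] V) v) = ((y ^ 2 : F.iso) : V ≃ₗ[K] V) ((g : V ≃ₗ[K] V) v) := by
    intro v
    rw [← mul_apply, ← mul_apply, ← hg, inv_mul_cancel_right]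
  have hsq : ∀ v, ((y ^ 2 : F.iso) : V ≃ₗ[K] V) v = (y : V ≃ₗ[K] V) ((y : V ≃ₗ[K] V) v) := by
    intro v
    rw [pow_two, mul_apply]
  have hgU : ∀ u ∈ U, (g : V ≃ₗ[K] V) u ∈ U := by
    intro u hu
    have h1 := comS_conj (x := (y : V ≃ₗ[K] V)) (x' := ((y ^ 2 : F.iso) : V ≃ₗ[K] V)) (g := (g : V ≃ₗ[K] V)) hgy hu
    obtain ⟨v, hv⟩ := mem_comS.1 h1
    rw [← hv, hsq]
    have h2 : (y : V ≃ₗ[K] V) ((y : V ≃ₗ[K] V) v) - v =
        ((y : V ≃ₗ[K] V) ((y : V ≃ₗ[K] V) v) - (y : V ≃ₗ[K] V) v) + ((y : V ≃ₗ[K] V) v - v) := by abel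
    rw [h2]
    exact U.add_mem ⟨_, rfl⟩ ⟨_, rfl⟩
  have hmap : U.map ((g : V ≃ₗ[K] V) : V →ₗ[K] V) = U := by
    apply Submodule.eq_of_le_of_finrank_eq
    · rintro _ ⟨u, hu, rfl⟩
      exact hgU u hu
    · exact LinearEquiv.finrank_map_eq (g : V ≃ₗ[K] V) _
  obtain ⟨m, hm0, hmd, hm⟩ := exists_cp (f := ((y : V ≃ₗ[K] V) : V →ₗ[K] V)) (W := U) h.comS_stable
  rw [finrank_com h hK hσ hV] at hmd
  -- doubling
  have hstep : ∀ k : ℕ, (∀ u ∈ U, aeval (((y : V ≃ₗ[K] V) ^ k : V ≃ₗ[K] V) : V →ₗ[K] V) m u = 0) →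
      ∀ u ∈ U, aeval (((y : V ≃ₗ[K] V) ^ (k * 2) : V ≃ₗ[K] V) : V →ₗ[K] V) m u = 0 := by
    intro k hk u hu
    rw [← hmap] at hu
    obtain ⟨u', hu', rfl⟩ := hu
    have e1 : ∀ v, (g : V ≃ₗ[K] V) (((y : V ≃ₗ[K] V) ^ k) v) = ((y : V ≃ₗ[K] V) ^ (k * 2)) ((g : V ≃ₗ[K] V) v) := by
      have e2 : g * y ^ k = y ^ (k * 2) * g := by
        have e3 : g * y ^ k * g⁻¹ = y ^ (k * 2) := by rw [← conj_pow, hg, ← pow_mul, mul_comm]
        rw [← e3, inv_mul_cancel_right]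
      intro v
      have e4 := congrArg (fun x : F.iso => (x : V ≃ₗ[K] V) v) e2
      exact e4
    have e5 : ∀ s : K[X], ∀ v, (g : V ≃ₗ[K] V) (aeval (((y : V ≃ₗ[K] V) ^ k : V ≃ₗ[K] V) : V →ₗ[K] V) s v) =
        aeval (((y : V ≃ₗ[K] V) ^ (k * 2) : V ≃ₗ[K] V) : V →ₗ[K] V) s ((g : V ≃ₗ[K] V) v) := by
      intro s
      have hpw : ∀ n : ℕ, ∀ v, (g : V ≃ₗ[K] V) (((((y : V ≃ₗ[K] V) ^ k : V ≃ₗ[K] V) : V →ₗ[K] V) ^ n) v) =
          ((((y : V ≃ₗ[K] V) ^ (k * 2) : V ≃ₗ[K] V) : V →ₗ[K] V) ^ n) ((g : V ≃ₗ[K] V) v) := by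
        intro n
        induction n with
        | zero => intro v; rfl
        | succ n ih =>
          intro v
          rw [pow_succ, pow_succ]
          show (g : V ≃ₗ[K] V) (((((y : V ≃ₗ[K] V) ^ k : V ≃ₗ[K] V) : V →ₗ[K] V) ^ n) (((y : V ≃ₗ[K] V) ^ k) v)) =
            ((((y : V ≃ₗ[K] V) ^ (k * 2) : V ≃ₗ[K] V) : V →ₗ[K] V) ^ n) (((y : V ≃ₗ[K] V) ^ (k * 2)) ((g : V ≃ₗ[K] V) v))
          rw [ih, e1]
      induction s using Polynomial.induction_on' with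
      | add p q hp hq =>
        intro v
        rw [map_add, map_add, LinearMap.add_apply, LinearMap.add_apply, map_add, hp, hq]
      | monomial n a =>
        intro v
        rw [aeval_monomial, aeval_monomial]
        show (g : V ≃ₗ[K] V) (a • ((((y : V ≃ₗ[K] V) ^ k : V ≃ₗ[K] V) : V →ₗ[K] V) ^ n) v) =
          a • ((((y : V ≃ₗ[K] V) ^ (k * 2) : V ≃ₗ[K] V) : V →ₗ[K] V) ^ n) ((g : V ≃ₗ[K] V) v)
        rw [map_smul, hpw]
    show aeval (((y : V ≃ₗ[K] V) ^ (k * 2) : V ≃ₗ[K] V) : V →ₗ[K] V) m ((g : V ≃ₗ[K] V) u') = 0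
    rw [← e5, hk u' hu', map_zero]
  have hall : ∀ i : ℕ, ∀ u ∈ U, aeval (((y : V ≃ₗ[K] V) ^ (2 ^ i) : V ≃ₗ[K] V) : V →ₗ[K] V) m u = 0 := by
    intro i
    induction i with
    | zero => intro u hu; rw [pow_zero, pow_one]; exact hm u hu
    | succ i ih => rw [pow_succ]; exact hstep _ ih
  -- an irreducible subspace
  obtain ⟨W, hWU, hWst, hWne, hWirr⟩ : ∃ W ≤ U, (∀ u ∈ W, (y : V ≃ₗ[K] V) u ∈ W) ∧ W ≠ ⊥ ∧
      ∀ S ≤ W, (∀ s ∈ S, (y : V ≃ₗ[K] V) s ∈ S) → S ≠ ⊥ → S = W := by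
    by_cases hex : ∃ W ≤ U, (∀ u ∈ W, (y : V ≃ₗ[K] V) u ∈ W) ∧ finrank K W = 3
    · obtain ⟨W, h1, h2, h3⟩ := hex
      refine ⟨W, h1, h2, ?_, h.irr h1 (by rw [h3, ord h hK])⟩
      rintro rfl
      rw [finrank_bot] at h3
      omega
    · refine ⟨U, le_rfl, h.comS_stable, h.comS_ne, fun S hS hst hne => ?_⟩
      by_contra hSU
      exact hex ⟨S, hS, hst, dims h hK hσ hV hS hst hne hSU⟩
  have hle := roots_le (y := (y : V ≃ₗ[K] V)) h.prime h.pow_eq hWst hWirr hWne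
    (fun u hu => h.comS_fix u (hWU hu)) hm0 ((Finset.range 12).image (2 ^ ·)) (by decide) (by
      intro i hi u hu
      obtain ⟨k, -, rfl⟩ := Finset.mem_image.1 hi
      exact hall k u (hWU hu))
  rw [hmd] at hle
  have : ((Finset.range 12).image (2 ^ ·)).card = 12 := by decide
  omega

variable [Finite F.iso]

theorem not_dvd_Ky (hV : finrank K V = 8) : ¬ 13 ∣ Nat.card (Ky F y) := by
  intro hd
  have := Fact.mk h.prime
  obtain ⟨z, hz⟩ := exists_prime_orderOf_dvd_card' 13 hd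
  have hz1 : orderOf (z : F.iso) = 13 := by rw [Subgroup.orderOf_coe, hz]
  have hm : Med (((z : F.iso)) : V ≃ₗ[K] V) 13 := ⟨h.prime, by rw [Subgroup.orderOf_coe]; exact hz1, h.ndvd⟩
  have h1 := finrank_com hm hK hσ hV
  have h2 := finrank_com h hK hσ hV
  have h3 := Submodule.finrank_add_eq_of_isCompl hm.isCompl
  rw [h1, hV] at h3
  have h4 : comS (y : V ≃ₗ[K] V) ≤ fixS ((z : F.iso) : V ≃ₗ[K] V) := fun u hu => mem_fixS.2 (z.2 u hu)
  have h5 := Submodule.finrank_mono h4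
  omega

/-- `y k₀` and `y² k₀` are not conjugate modulo the kernel -/
theorem not_conj {S : Type*} [Group S] {π : F.iso →* S} (hπ : Function.Surjective π)
    (hker : π.ker ≤ Subgroup.center F.iso) (hkr : ¬ 13 ∣ Nat.card π.ker) (hV : finrank K V = 8)
    {k₀ : F.iso} (hk₀ : k₀ ∈ Ky F y) : ¬ IsConj (π (y * k₀)) (π (y ^ 2 * k₀)) := by
  intro hc
  obtain ⟨g, c, hcZ, hg⟩ := conj_of_isConj hπ hc
  obtain ⟨a, s, hs, hGs⟩ := Nat.exists_eq_pow_mul_and_not_dvd (Nat.card_pos (α := F.iso)).ne' 13 (by norm_num)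
  have hord : ∀ x : F.iso, ¬ 13 ∣ orderOf x → x ^ s = 1 := by
    intro x hx
    have h1 : orderOf x ∣ 13 ^ a * s := hGs ▸ orderOf_dvd_natCard x
    have h2 : (orderOf x).Coprime (13 ^ a) := ((Nat.Prime.coprime_iff_not_dvd h.prime).2 hx).symm.pow_right a
    exact orderOf_dvd_iff_pow_eq_one.1 (h2.dvd_of_dvd_mul_left h1)
  have hk1 : k₀ ^ s = 1 := by
    refine hord k₀ fun hd => not_dvd_Ky h hK hσ hV (hd.trans ?_)
    have := orderOf_dvd_natCard (⟨k₀, hk₀⟩ : Ky F y)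
    rwa [Subgroup.orderOf_mk] at this
  have hc1 : c ^ s = 1 := by
    refine hord c fun hd => hkr (hd.trans ?_)
    have := orderOf_dvd_natCard (⟨c, hcZ⟩ : π.ker)
    rwa [Subgroup.orderOf_mk] at this
  have hky := h.Ky_comm hk₀
  have e1 : (g * (y * k₀) * g⁻¹) ^ s = g * y ^ s * g⁻¹ := by
    rw [conj_pow, hky.symm.mul_pow, hk1, mul_one]
  have e2 : (c * (y ^ 2 * k₀)) ^ s = (y ^ 2) ^ s := by
    have h3 : Commute c (y ^ 2 * k₀) := (Subgroup.mem_center_iff.1 (hker hcZ) _).symm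
    rw [h3.mul_pow, hc1, one_mul, (hky.symm.pow_left 2).mul_pow, hk1, mul_one]
  have e3 : g * y ^ s * g⁻¹ = (y ^ 2) ^ s := by rw [← e1, hg, e2]
  obtain ⟨j, hj⟩ : ∃ j : ℕ, (y ^ s) ^ j = y := by
    have h1 : (orderOf y).Coprime s := by
      rw [h.orderOf_eq]
      exact (Nat.Prime.coprime_iff_not_dvd h.prime).2 hs
    exact exists_pow_eq_self_of_coprime h1.symm
  refine no_sq h hK hσ hV ⟨g, ?_⟩
  calc g * y * g⁻¹ = (g * y ^ s * g⁻¹) ^ j := by rw [conj_pow, hj]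
    _ = y ^ 2 := by rw [e3, ← pow_mul, ← pow_mul, mul_comm 2, pow_mul, pow_mul, hj]

end T13

/-- **The prime 13 for `PSp_8(3)`.** -/
theorem cong_psp8_three {S : Type u} [Group S] [Finite S] {F : Type} [Field F] [Fintype F] (e : S ≃* PSp 4 F)
    (hF : Fintype.card F = 3) : CongS 3 13 {9, -3} S := by
  intro χ hχ h0 m ε hε hs
  have h13 : Nat.Prime 13 := by norm_num
  have hrf : Fact (Nat.Prime 13) := ⟨h13⟩
  have hp3 : Fact (Nat.Prime 3) := ⟨Nat.prime_three⟩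
  obtain ⟨π, hπ, hker, hkc⟩ := H366.OZ.exists_pi e (by norm_num)
  have hK : Nat.card F = 3 := by rw [Nat.card_eq_fintype_card, hF]
  have hkc2 : Nat.card π.ker = 2 := by rw [hkc, hF]; rfl
  have hfin : Finite (CForm.spF F 4).iso := finite_iso _
  have hV : finrank F (Fin 4 ⊕ Fin 4 → F) = 8 := by
    rw [Module.finrank_fintype_fun_eq_card, Fintype.card_sum, Fintype.card_fin]
  have hσ : ∀ a, (CForm.spF F 4).σ a = a := fun a => by simp
  have hQ0 : ∀ v, (CForm.spF F 4).Q v = 0 := fun v => by simp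
  have hcard : Nat.card (CForm.spF F 4).iso = 13 * (3 ^ 16 * (8 * 80 * 56 * 6560)) := by
    rw [card_spF, hK]
    simp only [Finset.prod_range_succ, Finset.prod_range_zero]
    norm_num
  have hkr : ¬ 13 ∣ Nat.card π.ker := by rw [hkc2]; norm_num
  have hkp : ¬ 3 ∣ Nat.card π.ker := by rw [hkc2]; norm_num
  let R : Sylow 13 (CForm.spF F 4).iso := default
  have hRc : Nat.card (R : Subgroup (CForm.spF F 4).iso) = 13 := by
    rw [Sylow.card_eq_multiplicity]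
    have h1 : (Nat.card (CForm.spF F 4).iso).factorization 13 = 1 := by
      rw [hcard, Nat.factorization_mul (by norm_num) (by norm_num), Finsupp.add_apply,
        Nat.Prime.factorization_self h13, Nat.factorization_eq_zero_of_not_dvd (by norm_num)]
    rw [h1, pow_one]
  have hcyc : IsCyclic (R : Subgroup (CForm.spF F 4).iso) := isCyclic_of_prime_card hRc
  obtain ⟨⟨y, hyR⟩, hgen⟩ := hcyc.exists_generator
  have hyo : orderOf y = 13 := by
    have h1 := orderOf_eq_card_of_forall_mem_zpowers hgen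
    rw [hRc, Subgroup.orderOf_mk] at h1
    exact h1
  have hRz : ∀ t ∈ (R : Subgroup (CForm.spF F 4).iso), t ∈ Subgroup.zpowers y := by
    intro t ht
    obtain ⟨k, hk⟩ := Subgroup.mem_zpowers_iff.1 (hgen ⟨t, ht⟩)
    exact Subgroup.mem_zpowers_iff.2 ⟨k, congrArg Subtype.val hk⟩
  have hC : Subgroup.centralizer ({y} : Set (CForm.spF F 4).iso) ≤
      Subgroup.centralizer ((R : Subgroup (CForm.spF F 4).iso) : Set _) := by
    intro c hc
    rw [Subgroup.mem_centralizer_iff]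
    intro t ht
    obtain ⟨k, rfl⟩ := Subgroup.mem_zpowers_iff.1 (hRz t ht)
    have hcy : Commute c y := Subgroup.mem_centralizer_singleton_iff.1 hc
    exact (hcy.symm.zpow_left k).eq
  have h : Med (y : (Fin 4 ⊕ Fin 4 → F) ≃ₗ[F] (Fin 4 ⊕ Fin 4 → F)) 13 :=
    ⟨h13, by rw [Subgroup.orderOf_coe]; exact hyo, by rw [hK]; norm_num⟩
  have h6 := T13.finrank_com h hK hσ hV
  have hfix : finrank F (fixS (y : (Fin 4 ⊕ Fin 4 → F) ≃ₗ[F] (Fin 4 ⊕ Fin 4 → F))) = 2 := by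
    have h1 := Submodule.finrank_add_eq_of_isCompl h.isCompl
    rw [h6, hV] at h1
    omega
  have hKC : Ky (CForm.spF F 4) y ≤ Subgroup.centralizer ((R : Subgroup (CForm.spF F 4).iso) : Set _) := by
    intro g hg
    exact hC (Subgroup.mem_centralizer_singleton_iff.2 (h.Ky_comm hg).eq)
  have hKN : ∀ g ∈ Subgroup.normalizer ((R : Subgroup (CForm.spF F 4).iso) : Set _), ∃ c ∈ Ky (CForm.spF F 4) y,
      ∀ x ∈ Ky (CForm.spF F 4) y, g * x * g⁻¹ = c * x * c⁻¹ := by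
    intro g hg
    apply h.inner
    have h1 : g * y * g⁻¹ ∈ (R : Subgroup (CForm.spF F 4).iso) := (Subgroup.mem_normalizer_iff.1 hg y).1 hyR
    obtain ⟨i, hi⟩ := mem_powers_iff_mem_zpowers.2 (hRz _ h1)
    refine ⟨i, fun hd => ?_, hi.symm⟩
    have h4 : y ^ i = 1 := by
      rw [← orderOf_dvd_iff_pow_eq_one, hyo]
      exact hd
    have h5 : y = 1 := by
      have h6 : g * y * g⁻¹ = 1 := by rw [← hi]; exact h4
      have : y = g⁻¹ * (g * y * g⁻¹) * g := by group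
      rw [this, h6]; group
    rw [h5, orderOf_one] at hyo
    exact absurd hyo (by norm_num)
  have hpK : ∀ v, Commute y v → v ∈ pSet 3 (CForm.spF F 4).iso → v ∈ Ky (CForm.spF F 4) y := by
    intro v hv hvp
    obtain ⟨j, hj⟩ := (pSet_iff Nat.prime_three).1 hvp
    exact T13.mem_Ky h hK hσ hV hv.symm hj
  have hnot : ∀ k₀ ∈ Ky (CForm.spF F 4) y, ¬ IsConj (π (y * k₀)) (π (y ^ 2 * k₀)) := fun k₀ hk₀ =>
    T13.not_conj h hK hσ hπ hker hkr hV hk₀
  have hnd : Nat.card (Subgroup.centralizer ({y} : Set (CForm.spF F 4).iso)) ≠ 13 * Nat.card π.ker ∨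
      ∃ m : ℕ, ¬ 13 ∣ m ∧ ¬ IsConj (π y) (π y ^ m) := by
    right
    refine ⟨2, by norm_num, ?_⟩
    have h1 := hnot 1 (Subgroup.one_mem _)
    rwa [mul_one, mul_one, map_pow] at h1
  have h2 : ∀ k₀ ∈ Ky (CForm.spF F 4) y, ∃ y₁ ∈ R, ∃ t₁ ∈ Subgroup.centralizer ((R : Subgroup (CForm.spF F 4).iso) : Set _),
      ∃ y₂ ∈ R, ∃ t₂ ∈ Subgroup.centralizer ((R : Subgroup (CForm.spF F 4).iso) : Set _),
      Subgroup.centralizer ({y₁} : Set _) ≤ Subgroup.centralizer ((R : Subgroup (CForm.spF F 4).iso) : Set _) ∧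
      (∀ x ∈ Ky (CForm.spF F 4) y, t₁ * x = x * t₁) ∧ ¬ 13 ∣ orderOf t₁ ∧
      Subgroup.centralizer ({y₂} : Set _) ≤ Subgroup.centralizer ((R : Subgroup (CForm.spF F 4).iso) : Set _) ∧
      (∀ x ∈ Ky (CForm.spF F 4) y, t₂ * x = x * t₂) ∧ ¬ 13 ∣ orderOf t₂ ∧
      ¬ IsConj (π (y₁ * t₁ * k₀)) (π (y₂ * t₂ * k₀)) := by
    intro k₀ hk₀
    have ho1 : ¬ 13 ∣ orderOf (1 : (CForm.spF F 4).iso) := by rw [orderOf_one]; norm_num
    refine ⟨y, hyR, 1, Subgroup.one_mem _, y ^ 2, Subgroup.pow_mem _ hyR 2, 1, Subgroup.one_mem _, hC,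
      fun x _ => by rw [one_mul, mul_one], ho1, ?_, fun x _ => by rw [one_mul, mul_one], ho1, ?_⟩
    · intro c hc
      refine hC ?_
      rw [Subgroup.mem_centralizer_singleton_iff] at hc ⊢
      have h1 : Commute c (y ^ 2) := hc
      have h2 := h1.pow_right 7
      have h3 : (y ^ 2) ^ 7 = y := by
        rw [← pow_mul, show 2 * 7 = 13 + 1 from rfl, pow_succ, ← hyo, pow_orderOf_eq_one, one_mul]
      rw [h3] at h2
      exact h2.eq
    · rw [mul_one, mul_one]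
      exact hnot k₀ hk₀
  obtain ⟨f, -, hf⟩ := tr_gen hπ hker Nat.prime_three (by norm_num : (13 : ℕ) ≠ 3) hkp hkr R hcyc hyo hyR hC hnd _
    hKC (T13.not_dvd_Ky h hK hσ hV) hKN hpK h2 hχ h0 hs
  have ho : ∀ u ∈ comS (y : (Fin 4 ⊕ Fin 4 → F) ≃ₗ[F] (Fin 4 ⊕ Fin 4 → F)),
      ∀ w ∈ fixS (y : (Fin 4 ⊕ Fin 4 → F) ≃ₗ[F] (Fin 4 ⊕ Fin 4 → F)), (CForm.spF F 4).B u w = 0 :=
    fun _ hu _ hw => B_com_fix _ hu hw
  have hKmem : ∀ g : (CForm.spF F 4).iso, g ∈ Ky (CForm.spF F 4) y ↔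
      ∀ u ∈ comS (y : (Fin 4 ⊕ Fin 4 → F) ≃ₗ[F] (Fin 4 ⊕ Fin 4 → F)),
        (g : (Fin 4 ⊕ Fin 4 → F) ≃ₗ[F] (Fin 4 ⊕ Fin 4 → F)) u = u := fun g => Iff.rfl
  rcases H845.OZ.psum_13 (CForm.spF F 4) h.isCompl ho hσ hQ0 hfix hKmem hK f with h9 | h9
  · refine ⟨9, Or.inl rfl, hf 9 ?_⟩
    rw [H845.OZ.psum] at h9
    rw [h9]
    norm_num
  · refine ⟨-3, Or.inr rfl, hf (-3) ?_⟩
    rw [H845.OZ.psum] at h9
    rw [h9]
    norm_num

end Cfsg.Agent.H477.OZ
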