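import Cfsg.Agent.H205.OZ.Nrm

/-!
# The `p`-elements of the centralizer of a torus element of `Om (Q.prod Q')` (S4842, helper477)
-/

set_option autoImplicit false
set_option linter.unusedSectionVars false

namespace Cfsg.Agent.H477.OZ

open Module QuadraticMap Cfsg
open Cfsg.Agent.LieClassical.OrthCore Cfsg.Agent.H182.Sign Cfsg.Agent.H93.CJ Cfsg.Agent.H530.OZ
open Cfsg.Agent.H160.QSpin Cfsg.Agent.H160.QDisc Cfsg.Agent.H160.QSplit
open Cfsg.Agent.H205.OZ

variable {F L P : Type} [Field F] [Fintype F] [Field L] [Finite L] [Algebra F L] [AddCommGroup P] [Module F P] [Finite P]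
  {Q : QuadraticForm F L} {Q' : QuadraticForm F P} {p m k r : ℕ} {u lam : L}

variable (D : Dat p m k r Q Q' u lam)

include D

theorem mem_K_of_p {v : Om (Q.prod Q')} (hv : Commute D.z v) {j : ℕ} (ho : orderOf v = p ^ j) : v ∈ D.inj.range := by
  have hpf : Fact p.Prime := ⟨D.pp⟩
  have hch := D.ch
  have hchL : CharP L p := charP_of_injective_algebraMap (algebraMap F L).injective p
  obtain ⟨α, hα, s, ε, h1, h2, h3⟩ := D.exists_blk hv
  have h4 : v ^ p ^ j = 1 := by rw [← ho, pow_orderOf_eq_one]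
  have h5 : (pr (mulL F α hα) s) ^ p ^ j = 1 := by
    rw [← h1]
    exact congrArg Subtype.val h4
  rw [pr_pow] at h5
  have h6 : (mulL F α hα) ^ p ^ j = 1 := (Dat.pr_inj (h5.trans pr_one.symm)).1
  have h7 : α ^ p ^ j = 1 := by
    have h8 := LinearEquiv.congr_fun h6 (1 : L)
    rw [mulL_pow] at h8
    rwa [mul_one] at h8
  have h9 : α = 1 := by
    have h10 := sub_pow_char_pow (R := L) (p := p) (n := j) α 1
    rw [h7, one_pow, sub_self] at h10
    exact sub_eq_zero.1 (pow_eq_zero_iff (pow_ne_zero _ D.pp.ne_zero) |>.1 h10)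
  subst h9
  rw [Dat.mulL_one] at h1 h2
  have h11 : ε = 1 := el_unique h2 (El.one Q)
  subst h11
  exact D.mem_K.2 ⟨s, h3, h1⟩

omit D [Finite P] [Fintype F] in
theorem eq_one_of_dim_one (hd : finrank F P = 1) {s : P ≃ₗ[F] P} (hs : LinearEquiv.det s = 1) : s = 1 := by
  obtain ⟨v, hv, hall⟩ := finrank_eq_one_iff'.1 hd
  obtain ⟨c, hc⟩ := hall (s v)
  have h1 : (s : P →ₗ[F] P) = c • LinearMap.id := by
    refine LinearMap.ext fun w => ?_
    obtain ⟨d, rfl⟩ := hall w
    show s (d • v) = c • (d • v)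
    rw [map_smul, ← hc, smul_comm]
  have h2 : LinearMap.det (s : P →ₗ[F] P) = 1 := by
    rw [← LinearEquiv.coe_det, hs, Units.val_one]
  rw [h1, LinearMap.det_smul, hd, pow_one, LinearMap.det_id, mul_one] at h2
  refine LinearEquiv.ext fun w => ?_
  have h3 : s w = (s : P →ₗ[F] P) w := rfl
  rw [h3, h1, h2, one_smul]
  rfl

theorem count {a : ℕ} (ha : 0 < a) (hF : Fintype.card F = p ^ a) :
    Nat.card {v : Om (Q.prod Q') // Commute D.z v ∧ ∃ j : ℕ, orderOf v = p ^ j} = p ^ (2 * a * k ^ 2) := by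
  have hp2 : p ≠ 2 := by
    rintro rfl
    have := D.odd_q
    rw [hF, Nat.odd_pow_iff ha.ne'] at this
    exact absurd this (by decide)
  have hset : {v : Om (Q.prod Q') | Commute D.z v ∧ ∃ j : ℕ, orderOf v = p ^ j} =
      D.inj '' (H730.OZ.pSet p (Om Q')) := by
    ext v
    constructor
    · rintro ⟨hv, j, hj⟩
      obtain ⟨s, rfl⟩ := mem_K_of_p D hv hj
      refine ⟨s, ⟨j, ?_⟩, rfl⟩
      rw [← hj]
      exact (orderOf_injective D.inj D.inj_injective s).symm
    · rintro ⟨s, ⟨j, hj⟩, rfl⟩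
      refine ⟨D.comm_of_blk (α := 1) (hα := one_ne_zero) (s := s) ?_, j, ?_⟩
      · rw [Dat.mulL_one, D.coe_inj]
      · rw [← hj]
        exact orderOf_injective D.inj D.inj_injective s
  have h1 : Nat.card {v : Om (Q.prod Q') // Commute D.z v ∧ ∃ j : ℕ, orderOf v = p ^ j} =
      ({v : Om (Q.prod Q') | Commute D.z v ∧ ∃ j : ℕ, orderOf v = p ^ j}).ncard := Nat.card_coe_set_eq _
  rw [h1, hset, Set.ncard_image_of_injective _ D.inj_injective]
  rcases Nat.eq_zero_or_pos k with hk | hk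
  · have hd : finrank F P = 1 := by rw [D.dimP, hk]
    have h2 : H730.OZ.pSet p (Om Q') = {1} := by
      ext s
      rw [Set.mem_singleton_iff]
      have hs1 : s = 1 := Subtype.ext (eq_one_of_dim_one hd s.2.2.1)
      exact ⟨fun _ => hs1, fun _ => ⟨0, by rw [hs1, orderOf_one, pow_zero]⟩⟩
    rw [h2, Set.ncard_singleton, hk]
    norm_num
  · exact card_unip D.pp ha hF hp2 hk D.nd D.dimP

end Cfsg.Agent.H477.OZ
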